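import Cfsg.Agent.FG3Gen.Context

/-!
The nilpotent case and the case of a central minimal subgroup.
-/

set_option autoImplicit false
set_option linter.unusedSectionVars false
set_option linter.style.haveILetI false

namespace Cfsg.Agent.FG3Gen

open Subgroup
open scoped commutatorElement

variable {G : Type*} [Group G] [Finite G] {P H : Subgroup G}

theorem sup_derived_ne {K : Subgroup G} [Group.IsNilpotent H] (hK : K ≤ H) (hne : K ≠ H) :
    K ⊔ ⁅H, H⁆ ≠ H := by
  intro he
  have hK' : K.subgroupOf H ≠ ⊤ := fun h => hne (le_antisymm hK (subgroupOf_eq_top.1 h))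
  obtain ⟨M, hM, hKM⟩ := (eq_top_or_exists_le_coatom (K.subgroupOf H)).resolve_left hK'
  haveI : M.Normal := Subgroup.NormalizerCondition.normal_of_coatom _ Group.normalizerCondition_of_isNilpotent hM
  have hc : commutator H ≤ M := by
    haveI : IsSimpleGroup (H ⧸ M) := by
      haveI : Nontrivial (H ⧸ M) := QuotientGroup.nontrivial_iff.2 hM.1
      refine ⟨fun Y _ => ?_⟩
      rcases eq_or_lt_of_le (QuotientGroup.le_comap_mk' M Y) with h | h
      · left
        rw [← map_comap_eq_self_of_surjective (QuotientGroup.mk'_surjective M) Y, ← h,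
          QuotientGroup.map_mk'_self]
      · right
        rw [← map_comap_eq_self_of_surjective (QuotientGroup.mk'_surjective M) Y, hM.2 _ h,
          map_top_of_surjective _ (QuotientGroup.mk'_surjective M)]
    haveI : IsMulCommutative (H ⧸ M) := by
      haveI : Group.IsNilpotent (H ⧸ M) := Group.nilpotent_quotient_of_nilpotent M
      exact ⟨⟨IsSimpleGroup.comm_iff_isSolvable.2 inferInstance⟩⟩
    exact Subgroup.Normal.quotient_commutative_iff_commutator_le.1 inferInstance
  have h1 : H ≤ M.map H.subtype := by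
    conv_lhs => rw [← he]
    refine sup_le ?_ ?_
    · have := map_mono (f := H.subtype) hKM
      rwa [map_subgroupOf_eq_of_le hK] at this
    · rw [← map_subtype_commutator]
      exact map_mono hc
  refine hM.1 (eq_top_iff.2 fun x _ => ?_)
  obtain ⟨y, hy, hyx⟩ := h1 x.2
  rwa [← Subtype.ext hyx]

theorem centralizer_le_normalizer'' (X : Subgroup G) {y : G} (hy : ∀ w ∈ X, w * y = y * w) :
    y ∈ normalizer (X : Set G) :=
  Coprime.centralizer_le_normalizer' X hy

theorem mem_R_derived_commutator (h : Ctx P H) {x : G} (hx : x ∈ H) :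
    R P x ≤ ⁅R P x ⊔ ⁅H, H⁆, P⁆ :=
  R_le_commutator (h.mem_R_sup_derived hx)

theorem norm_R_derived (h : Ctx P H) (x : G) :
    P ≤ normalizer ((R P x ⊔ ⁅H, H⁆ : Subgroup G) : Set G) := by
  haveI := h.nrm
  haveI : (⁅H, H⁆ : Subgroup G).Normal := commutator_normal H H
  exact (le_inf (le_normalizer_R P x) (Ctx.le_normalizer_of_normal' inferInstance P)).trans
    (normalizer_inf_normalizer_le_normalizer_sup _ _)

/-- The nilpotent case. -/
theorem nilpotent_case [Group.IsNilpotent H] (h : Ctx P H) :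
    H ⊓ centralizer (P : Set G) ≤ L P H := by
  haveI := h.nrm
  set D := ⁅H, H⁆ with hD
  haveI : D.Normal := commutator_normal H H
  have hDH : D ≤ H := commutator_le_self H
  rcases eq_or_ne D ⊥ with hD0 | hD0
  · exact h.C_le_derived.trans (by rw [← hD, hD0]; exact bot_le)
  by_cases hall : ∃ x ∈ H, R P x = H
  · obtain ⟨x, hx, hxH⟩ := hall
    exact fun c hc => mem_L hx (hxH.symm ▸ hc.1) hc.2
  push_neg at hall
  have hRle : ∀ x ∈ H, R P x ≤ H := fun x hx => (R_le_commutator hx).trans h.full.le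
  have hKH : ∀ x ∈ H, R P x ⊔ D ≤ H := fun x hx => sup_le (hRle x hx) hDH
  have hKne : ∀ x ∈ H, R P x ⊔ D ≠ H := fun x hx =>
    sup_derived_ne (hRle x hx) (hall x hx)
  -- a minimal term of the lower central series with nontrivial commutator with `H`
  obtain ⟨γ, ⟨hγn, hγcase, hγne⟩, hγmin⟩ := exists_minimal_of_wellFoundedLT
    (fun γ : Subgroup G => γ.Normal ∧ (γ = H ∨ γ ≤ D) ∧ ⁅γ, H⁆ ≠ ⊥)
    ⟨H, h.nrm, Or.inl rfl, hD0⟩
  haveI := hγn
  have hγH : γ ≤ H := by rcases hγcase with h' | h'; exacts [h'.le, h'.trans hDH]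
  set Z := ⁅γ, H⁆ with hZ
  haveI hZn : Z.Normal := commutator_normal γ H
  have hZD : Z ≤ D := commutator_mono hγH le_rfl
  have hZH : Z ≤ H := hZD.trans hDH
  have hZcen : ⁅Z, H⁆ = ⊥ := by
    by_contra hne
    have hle : Z ≤ γ := commutator_le_left γ H
    have := hγmin ⟨hZn, Or.inr hZD, hne⟩ hle
    exact hγne (by
      have hg := LocalEven.eq_bot_of_le_commutator (S := H) hγH this
      rw [hZ, hg]
      exact commutator_bot_left H)
  have hcen : ∀ z ∈ Z, ∀ y ∈ H, y * z = z * y := fun z hz y hy =>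
    (commutatorElement_eq_one_iff_mul_comm.1
      (mem_bot.1 (hZcen ▸ commutator_mem_commutator hz hy))).symm
  haveI : IsMulCommutative Z :=
    ⟨⟨fun a b => Subtype.ext ((hcen a a.2 b (hZH b.2)).symm)⟩⟩
  have hPZ : P ≤ normalizer (Z : Set G) := Ctx.le_normalizer_of_normal' hZn P
  refine h.C_le_of_fixed_le hZn hZH hγne (h.fixed_le_L_of_le_W hZH hPZ ?_)
  have hbil : ∀ y ∈ γ, ∀ a ∈ H, ∀ b ∈ H, ⁅y, a * b⁆ = ⁅y, a⁆ * ⁅y, b⁆ := by
    intro y hy a ha b hb
    rw [commutatorElement_mul_right_eq_mul_conj, mul_assoc ⁅y, a⁆,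
      hcen _ (commutator_mem_commutator hy hb) a ha]
    group
  rw [commutator_le]
  rcases hγcase with hγ | hγ
  · -- class two: an invariant alternating form
    subst γ
    have hbil' : ∀ y ∈ H, ∀ a ∈ H, ∀ b ∈ H, ⁅a * b, y⁆ = ⁅a, y⁆ * ⁅b, y⁆ := by
      intro y hy a ha b hb
      rw [← inv_inj, commutatorElement_inv, mul_inv_rev, commutatorElement_inv,
        commutatorElement_inv, hbil y hy a ha b hb]
      exact hcen _ (commutator_mem_commutator hy hb) _
        (hZH (commutator_mem_commutator hy ha))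
    have hWle : W P H Z ≤ Z := sup_le inf_le_right (Coprime.commutator_le_of_le_normalizer hPZ)
    have hconj : ∀ a ∈ P, ∀ y ∈ H, a * y * a⁻¹ ∈ H := fun a ha y hy =>
      (mem_normalizer_iff.1 (h.norm ha) y).1 hy
    have hdiag : ∀ g ∈ P, ∀ y ∈ H, ⁅y, g * y * g⁻¹⁆ ∈ W P H Z := by
      intro g hg y hy
      set K := R P y ⊔ D with hK
      have hPK := norm_R_derived h y
      have hyK : y ∈ K := h.mem_R_sup_derived hy
      obtain ⟨c, hc, k, hk, he⟩ := Coprime.exists_mul_commutator (K := K) hPK (h.copK (hKH y hy))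
        (h.solK (hKH y hy)) hyK
      have hKle : K ≤ normalizer (⁅K, P⁆ : Subgroup G) := Coprime.le_normalizer_commutator_left K P
      refine h.mem_W_of_proper (K := K) hZH hPZ (hKH y hy) hPK (hKne y hy)
        (commutator_mem_commutator hy (hconj g hg y hy)) ?_
      have hkg : g * k * g⁻¹ ∈ (⁅K, P⁆ : Subgroup G) :=
        (mem_normalizer_iff.1 (Coprime.le_normalizer_commutator_right K P hg) k).1 hk
      have hgc : g * c * g⁻¹ = c := by rw [hc.2 g hg, mul_inv_cancel_right]
      have e : g * y * g⁻¹ = c * (g * k * g⁻¹) := by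
        rw [he, show g * (c * k) * g⁻¹ = (g * c * g⁻¹) * (g * k * g⁻¹) by group, hgc]
      have hkK : k ∈ K := (Coprime.commutator_le_of_le_normalizer hPK) hk
      have hgkK : g * k * g⁻¹ ∈ K := (Coprime.commutator_le_of_le_normalizer hPK) hkg
      have hKH' : K ≤ H := hKH y hy
      clear_value K
      rw [e, he, hbil' (c * (g * k * g⁻¹)) (mul_mem (hKH' hc.1) (hKH' hgkK)) c
        (hKH' hc.1) k (hKH' hkK), hbil c (hKH' hc.1) c (hKH' hc.1) _ (hKH' hgkK),
        commutatorElement_self, one_mul]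
      refine mul_mem ?_ ?_
      · rw [commutatorElement_def]
        exact mul_mem ((mem_normalizer_iff.1 (hKle hc.1) _).1 hkg) (inv_mem hkg)
      · rw [commutatorElement_def, mul_assoc, mul_assoc, ← mul_assoc (c * (g * k * g⁻¹))]
        exact mul_mem hk ((mem_normalizer_iff.1 (hKle (mul_mem hc.1 hgkK)) _).1 (inv_mem hk))
    set W₀ := W P H Z with hW₀
    haveI : W₀.Normal := h.normal_of
      (fun y hy => centralizer_le_normalizer'' _ (fun w hw => (hcen w (hWle hw) y hy).symm))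
      (fun g hg => by
        refine normalizer_inf_normalizer_le_normalizer_sup _ _ ⟨?_,
          Coprime.le_normalizer_commutator_right Z P hg⟩
        refine centralizer_le_normalizer'' _ fun w hw => ?_
        exact (L_le_centralizer P H hw.1 g hg).symm)
    set f := QuotientGroup.mk' W₀ with hf
    have hone : ∀ z, f z = 1 ↔ z ∈ W₀ := fun z => QuotientGroup.eq_one_iff z
    have hfix : ∀ g ∈ P, ∀ z ∈ Z, f (g * z * g⁻¹) = f z := fun g hg z hz => by
      have := commutator_mem_commutator hz hg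
      have h' : f ⁅z, g⁆ = 1 := (hone _).2 (mem_sup_right this)
      rw [commutatorElement_def, show z * g * z⁻¹ * g⁻¹ = z * (g * z * g⁻¹)⁻¹ by group, map_mul,
        map_inv, mul_inv_eq_one] at h'
      exact h'.symm
    have hA : ∀ g ∈ P, ∀ a ∈ H, ∀ b ∈ H, f ⁅a, g * b * g⁻¹⁆ * f ⁅b, g * a * g⁻¹⁆ = 1 := by
      intro g hg a ha b hb
      have hga := hconj g hg a ha
      have hgb := hconj g hg b hb
      have h1 := (hone _).2 (hdiag g hg (a * b) (mul_mem ha hb))
      rwa [show g * (a * b) * g⁻¹ = (g * a * g⁻¹) * (g * b * g⁻¹) by group,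
        hbil' _ (mul_mem hga hgb) a ha b hb, hbil a ha _ hga _ hgb, hbil b hb _ hga _ hgb,
        map_mul, map_mul, map_mul, (hone _).2 (hdiag g hg a ha), (hone _).2 (hdiag g hg b hb),
        one_mul, mul_one] at h1
    have hinv : ∀ a ∈ H, ∀ b ∈ H, f ⁅b, a⁆ = (f ⁅a, b⁆)⁻¹ := fun a _ b _ => by
      rw [← map_inv, commutatorElement_inv]
    have hsq : ∀ g ∈ P, ∀ a ∈ H, ∀ b ∈ H, f ⁅a, (g * g) * b * (g * g)⁻¹⁆ = f ⁅a, b⁆ := by
      intro g hg a ha b hb
      have ha0 : g⁻¹ * a * g ∈ H := by simpa using hconj g⁻¹ (inv_mem hg) a ha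
      have hgb := hconj g hg b hb
      calc f ⁅a, (g * g) * b * (g * g)⁻¹⁆
          = f (g * ⁅g⁻¹ * a * g, g * b * g⁻¹⁆ * g⁻¹) := congrArg f (by simp only [commutatorElement_def, mul_inv_rev, inv_inv, mul_assoc, mul_inv_cancel_left, inv_mul_cancel_left, inv_mul_cancel, mul_inv_cancel, mul_one])
        _ = f ⁅g⁻¹ * a * g, g * b * g⁻¹⁆ := hfix g hg _ (commutator_mem_commutator ha0 hgb)
        _ = (f ⁅b, g * (g⁻¹ * a * g) * g⁻¹⁆)⁻¹ := eq_inv_of_mul_eq_one_left (hA g hg _ ha0 b hb)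
        _ = f ⁅a, b⁆ := by
          rw [show g * (g⁻¹ * a * g) * g⁻¹ = a by group, hinv a ha b hb, inv_inv]
    have hall : ∀ a ∈ H, ∀ y ∈ ⁅H, P⁆, y ∈ H ∧ f ⁅a, y⁆ = 1 := by
      intro a ha y hy
      rw [Subgroup.commutator_def] at hy
      induction hy using closure_induction with
      | mem y hy =>
        obtain ⟨b, hb, q, hq, rfl⟩ := hy
        refine ⟨h.full.le (commutator_mem_commutator hb hq), ?_⟩
        obtain ⟨g, hg, rfl⟩ : ∃ g ∈ P, q = g * g := by
          have h2 : q ∈ zpowers (q ^ 2) := mem_zpowers_pow_iff.2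
            (((Nat.coprime_primes Nat.prime_two h.prime).2
              (Nat.ne_of_lt h.odd)).coprime_dvd_right (orderOf_dvd_natCard P hq))
          obtain ⟨k, hk⟩ := mem_zpowers_iff.1 h2
          refine ⟨q ^ k, zpow_mem hq k, ?_⟩
          rw [← zpow_natCast, ← zpow_mul] at hk
          rw [← zpow_add, ← two_mul]
          exact hk.symm
        have hgb := hconj _ (mul_mem hg hg) b hb
        have := hsq g hg a ha b⁻¹ (inv_mem hb)
        have hc := hconj _ (mul_mem hg hg) _ (inv_mem hb)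
        rw [show ⁅b, g * g⁆ = b * (g * g * b⁻¹ * (g * g)⁻¹) by group,
          hbil a ha b hb _ hc, map_mul, this, ← map_mul, ← hbil a ha b hb _ (inv_mem hb),
          mul_inv_cancel, commutatorElement_one_right, map_one]
      | one => exact ⟨one_mem _, by rw [commutatorElement_one_right, map_one]⟩
      | mul b c _ _ hb hc =>
        exact ⟨mul_mem hb.1 hc.1, by rw [hbil a ha b hb.1 c hc.1, map_mul, hb.2, hc.2, one_mul]⟩
      | inv b _ hb =>
        refine ⟨inv_mem hb.1, ?_⟩
        have := hbil a ha b hb.1 b⁻¹ (inv_mem hb.1)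
        rw [mul_inv_cancel, commutatorElement_one_right] at this
        have := congrArg f this
        rwa [map_one, map_mul, hb.2, one_mul, eq_comm] at this
    intro a ha y hy
    exact (hone _).1 (hall a ha y (h.full.symm ▸ hy)).2
  · -- higher class: only `[γ, P]` contributes
    intro y hy x hx
    have hPγ : P ≤ normalizer (γ : Set G) := Ctx.le_normalizer_of_normal' hγn P
    obtain ⟨y0, hy0, y1, hy1, rfl⟩ :=
      Coprime.exists_mul_commutator hPγ (h.copK hγH) (h.solK hγH) hy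
    have hy1γ : y1 ∈ γ := Coprime.commutator_le_of_le_normalizer hPγ hy1
    have e : ⁅y0 * y1, x⁆ = ⁅y1, x⁆ * ⁅y0, x⁆ := by
      rw [commutatorElement_mul_left_eq_conj_mul, hcen _ (commutator_mem_commutator hy1γ hx) y0 (hγH hy0.1)]
      group
    rw [e]
    refine mul_mem ?_ ?_
    · set K := R P x ⊔ D with hK
      refine h.mem_W_of_proper hZH hPZ (hKH x hx) (norm_R_derived h x) (hKne x hx)
        (commutator_mem_commutator hy1γ hx) ?_
      have hy1K : y1 ∈ (⁅K, P⁆ : Subgroup G) := commutator_mono (hγ.trans le_sup_right) le_rfl hy1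
      rw [commutatorElement_def, mul_assoc, mul_assoc, ← mul_assoc x]
      exact mul_mem hy1K ((mem_normalizer_iff.1
        (Coprime.le_normalizer_commutator_left K P (h.mem_R_sup_derived hx)) y1⁻¹).1 (inv_mem hy1K))
    · refine mem_sup_right ?_
      rw [← h.full] at hx
      have hPn : ∀ a ∈ P, a * y0 = y0 * a := fun a ha => hy0.2 a ha
      have key : ∀ x ∈ ⁅H, P⁆, x ∈ H ∧ ⁅y0, x⁆ ∈ (⁅Z, P⁆ : Subgroup G) := by
        intro x hx
        rw [Subgroup.commutator_def] at hx
        induction hx using closure_induction with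
        | mem x hx =>
          obtain ⟨u, hu, a, ha, rfl⟩ := hx
          refine ⟨h.full.le (commutator_mem_commutator hu ha), ?_⟩
          have hau : a * u⁻¹ * a⁻¹ ∈ H := (mem_normalizer_iff.1 (h.norm ha) _).1 (inv_mem hu)
          have e1 : ⁅y0, u⁻¹⁆ = ⁅y0, u⁆⁻¹ := by
            have := hbil y0 hy0.1 u hu u⁻¹ (inv_mem hu)
            rw [mul_inv_cancel, commutatorElement_one_right] at this
            exact eq_inv_of_mul_eq_one_right this.symm
          have e2 : ⁅y0, a * u⁻¹ * a⁻¹⁆ = a * ⁅y0, u⁆⁻¹ * a⁻¹ := by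
            rw [← e1]
            have : a * y0 * a⁻¹ = y0 := by rw [hPn a ha, mul_inv_cancel_right]
            conv_lhs => rw [← this]
            group
          rw [show ⁅u, a⁆ = u * (a * u⁻¹ * a⁻¹) by group, hbil y0 hy0.1 u hu _ hau, e2]
          have := commutator_mem_commutator (commutator_mem_commutator hy0.1 hu) ha
          rwa [commutatorElement_def ⁅y0, u⁆ a, mul_assoc, mul_assoc, ← mul_assoc a] at this
        | one => exact ⟨one_mem _, by rw [commutatorElement_one_right]; exact one_mem _⟩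
        | mul a b _ _ ha hb =>
          exact ⟨mul_mem ha.1 hb.1, by rw [hbil y0 hy0.1 a ha.1 b hb.1]; exact mul_mem ha.2 hb.2⟩
        | inv a _ ha =>
          refine ⟨inv_mem ha.1, ?_⟩
          have := hbil y0 hy0.1 a ha.1 a⁻¹ (inv_mem ha.1)
          rw [mul_inv_cancel, commutatorElement_one_right] at this
          rw [eq_inv_of_mul_eq_one_right this.symm]
          exact inv_mem ha.2
      exact (key x hx).2

/-- The case of a central normal subgroup of prime power order. -/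
theorem central_case (h : Ctx P H) {V : Subgroup G} (hV : V.Normal) (hVH : V ≤ H) (hne : V ≠ ⊥)
    {l : ℕ} [Fact l.Prime] (hl : IsPGroup l V) (hcen : ∀ v ∈ V, ∀ y ∈ H, y * v = v * y) :
    H ⊓ centralizer (P : Set G) ≤ L P H := by
  refine h.C_le_of_fixed_le hV hVH hne ?_
  intro c hc
  obtain ⟨S, hVS, hPS⟩ := Coprime.exists_invariant_sylow_ge (p := l) h.norm h.cop
    (Or.inr h.sol) hVH (Ctx.le_normalizer_of_normal' hV P) hl
  set S₀ := (S : Subgroup H).map H.subtype with hS₀
  have hS₀H : S₀ ≤ H := map_subtype_le _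
  by_cases hSH : S₀ = H
  · have : IsPGroup l H := hSH ▸ S.isPGroup'.map H.subtype
    haveI := this.isNilpotent
    exact nilpotent_case h ⟨hVH hc.1, hc.2⟩
  -- transfer: `c` lies in the derived subgroup of the Sylow subgroup
  have hcH' := h.C_le_derived ⟨hVH hc.1, hc.2⟩
  have hcS' : c ∈ ⁅S₀, S₀⁆ := by
    set c' : H := ⟨c, hVH hc.1⟩ with hc'
    have hc'' : c' ∈ commutator H := by
      rw [← map_subtype_commutator] at hcH'
      obtain ⟨y, hy, hyc⟩ := hcH'
      rwa [← show y = c' from Subtype.ext hyc]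
    have hcS : c' ∈ (S : Subgroup H) := by
      obtain ⟨y, hy, hyc⟩ := hVS hc.1
      rwa [← show y = c' from Subtype.ext hyc]
    let φ : (S : Subgroup H) →* Abelianization (S : Subgroup H) := Abelianization.of
    have hpow := MonoidHom.transfer_eq_pow φ c' (fun k y _ => by
      have h1 : y * c' = c' * y := Subtype.ext (hcen c hc.1 y y.2)
      have h2 : Commute y (c' ^ k) := (show Commute y c' from h1).pow_right k
      rw [mul_assoc, ← h2.eq, inv_mul_cancel_left])
    have h1 : MonoidHom.transfer φ c' = 1 :=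
      Abelianization.commutator_subset_ker _ hc''
    rw [h1] at hpow
    have h2 : (φ ⟨c', hcS⟩) ^ (S : Subgroup H).index = 1 := by
      rw [← map_pow, hpow]; rfl
    obtain ⟨j, hj⟩ := IsPGroup.iff_orderOf.1 S.isPGroup' ⟨c', hcS⟩
    have h3 : φ ⟨c', hcS⟩ = 1 := by
      rw [← orderOf_eq_one_iff]
      refine Nat.eq_one_of_dvd_coprimes ?_ (orderOf_map_dvd φ _) (orderOf_dvd_of_pow_eq_one h2)
      rw [hj]
      exact ((Fact.out : l.Prime).coprime_iff_not_dvd.2 S.not_dvd_index).pow_left j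
    have h4 : (⟨c', hcS⟩ : (S : Subgroup H)) ∈ commutator (S : Subgroup H) :=
      (QuotientGroup.eq_one_iff _).1 h3
    have h5 : c' ∈ ⁅(S : Subgroup H), (S : Subgroup H)⁆ := by
      rw [← map_subtype_commutator]
      exact ⟨_, h4, rfl⟩
    rw [hS₀, ← map_commutator]
    exact ⟨c', h5, rfl⟩
  -- `[S₀, S₀] ≤ L [S₀, P]`
  set T := ⁅S₀, P⁆ with hT
  have hTS : T ≤ S₀ := Coprime.commutator_le_of_le_normalizer hPS
  have hLfix : ∀ a ∈ H ⊓ centralizer (P : Set G), ∀ b ∈ H ⊓ centralizer (P : Set G),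
      ⁅a, b⁆ ∈ L P H := by
    intro a ha b hb
    obtain ⟨l₁, hl₁, v₁, hv₁, rfl⟩ := h.exists_mul hV hVH hne ha
    obtain ⟨l₂, hl₂, v₂, hv₂, rfl⟩ := h.exists_mul hV hVH hne hb
    have hc1 := hcen v₁ hv₁.1
    have hc2 := hcen v₂ hv₂.1
    have hl₁H := L_le_self h.norm hl₁
    have hl₂H := L_le_self h.norm hl₂
    have e : ⁅l₁ * v₁, l₂ * v₂⁆ = ⁅l₁, l₂⁆ := by
      rw [commutatorElement_mul_left_eq_conj_mul, commutatorElement_eq_one_iff_mul_comm.2
          (hc1 _ (mul_mem hl₂H (hVH hv₂.1))).symm, mul_one, mul_inv_cancel, one_mul,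
        commutatorElement_mul_right_eq_mul_conj, commutatorElement_eq_one_iff_mul_comm.2 (hc2 _ hl₁H)]
      group
    rw [e, commutatorElement_def]
    exact mul_mem (mul_mem (mul_mem hl₁ hl₂) (inv_mem hl₁)) (inv_mem hl₂)
  have hST : S₀ ≤ normalizer (T : Set G) := Coprime.le_normalizer_commutator_left S₀ P
  have hle : ⁅S₀, S₀⁆ ≤ (L P H ⊓ S₀) ⊔ T := by
    rw [commutator_le]
    intro a ha b hb
    obtain ⟨a₀, ha₀, a₁, ha₁, rfl⟩ := Coprime.exists_mul_commutator hPS (h.copK hS₀H) (h.solK hS₀H) ha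
    obtain ⟨b₀, hb₀, b₁, hb₁, rfl⟩ := Coprime.exists_mul_commutator hPS (h.copK hS₀H) (h.solK hS₀H) hb
    have hL0 := hLfix a₀ ⟨hS₀H ha₀.1, ha₀.2⟩ b₀ ⟨hS₀H hb₀.1, hb₀.2⟩
    have hS0 : ⁅a₀, b₀⁆ ∈ S₀ := commutator_le_self S₀ (commutator_mem_commutator ha₀.1 hb₀.1)
    have hcomm : ∀ y ∈ S₀, ∀ t ∈ T, ⁅y, t⁆ ∈ T := fun y hy t ht => by
      rw [commutatorElement_def]
      exact mul_mem ((mem_normalizer_iff.1 (hST hy) t).1 ht) (inv_mem ht)
    have hcomm' : ∀ y ∈ S₀, ∀ t ∈ T, ⁅t, y⁆ ∈ T := fun y hy t ht => by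
      rw [← commutatorElement_inv]; exact inv_mem (hcomm y hy t ht)
    have hconj : ∀ y ∈ S₀, ∀ t ∈ T, y * t * y⁻¹ ∈ T := fun y hy t ht =>
      (mem_normalizer_iff.1 (hST hy) t).1 ht
    rw [commutatorElement_mul_left_eq_conj_mul, commutatorElement_mul_right_eq_mul_conj a₀]
    refine mul_mem (mem_sup_right (hconj _ ha₀.1 _ (hcomm' _ hb a₁ ha₁))) ?_
    rw [mul_assoc, mul_assoc, ← mul_assoc b₀]
    exact mul_mem (mem_sup_left ⟨hL0, hS0⟩)
      (mem_sup_right (hconj _ hb₀.1 _ (hcomm _ ha₀.1 b₁ hb₁)))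
  have hn : L P H ⊓ S₀ ≤ normalizer (T : Set G) := inf_le_right.trans hST
  have h2 := hle hcS'
  rw [← SetLike.mem_coe, coe_mul_of_left_le_normalizer_right _ _ hn] at h2
  obtain ⟨d, hd, r, hr, rfl⟩ := Set.mem_mul.1 h2
  refine mul_mem hd.1 (h.sub S₀ hS₀H hPS hSH ⟨hr, ?_⟩)
  have := mul_mem (inv_mem (L_le_centralizer P H hd.1)) hc.2
  simpa using this

end Cfsg.Agent.FG3Gen
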