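import Cfsg.Agent.Coprime.Action
import Cfsg.Agent.Coprime.Generation
import Cfsg.Agent.LocalEven.CoprimeLemmas

/-!
The subgroups `[h, P]` of a group with operators and their fixed points.
-/

set_option autoImplicit false
set_option linter.unusedSectionVars false
set_option linter.style.haveILetI false

namespace Cfsg.Agent.FG3Gen

open Subgroup
open scoped commutatorElement

variable {G : Type*} [Group G]

/-- The subgroup `[h, P]`. -/
def R (P : Subgroup G) (h : G) : Subgroup G :=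
  closure {y | ∃ a ∈ P, y = h⁻¹ * a * h * a⁻¹}

/-- The subgroup generated by the fixed points of `P` in the `[h, P]`, `h ∈ H`. -/
def L (P H : Subgroup G) : Subgroup G := ⨆ h ∈ H, R P h ⊓ centralizer (P : Set G)

theorem mem_R {P : Subgroup G} (h : G) {a : G} (ha : a ∈ P) : h⁻¹ * a * h * a⁻¹ ∈ R P h :=
  subset_closure ⟨a, ha, rfl⟩

theorem R_le_commutator {P H : Subgroup G} {h : G} (hh : h ∈ H) : R P h ≤ ⁅H, P⁆ := by
  refine (closure_le _).2 ?_
  rintro y ⟨a, ha, rfl⟩
  have := commutator_mem_commutator (inv_mem hh) ha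
  rwa [commutatorElement_def, inv_inv] at this

theorem le_normalizer_R (P : Subgroup G) (h : G) : P ≤ normalizer (R P h : Set G) := by
  have key : ∀ a ∈ P, ∀ y ∈ R P h, a * y * a⁻¹ ∈ R P h := by
    intro a ha y hy
    have : (R P h).map (MulAut.conj a).toMonoidHom ≤ R P h := by
      rw [R, MonoidHom.map_closure, closure_le]
      rintro _ ⟨_, ⟨b, hb, rfl⟩, rfl⟩
      have := mul_mem (inv_mem (mem_R h ha)) (mem_R h (mul_mem ha hb))
      show a * (h⁻¹ * b * h * b⁻¹) * a⁻¹ ∈ R P h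
      simpa [mul_assoc] using this
    exact this ⟨y, hy, rfl⟩
  intro a ha
  refine mem_normalizer_iff.2 fun y => ⟨key a ha y, fun hy => ?_⟩
  simpa [mul_assoc] using key a⁻¹ (inv_mem ha) _ hy

theorem map_R {G' : Type*} [Group G'] (f : G →* G') (P : Subgroup G) (h : G) :
    (R P h).map f = R (P.map f) (f h) := by
  rw [R, R, MonoidHom.map_closure]
  congr 1
  ext y
  constructor
  · rintro ⟨_, ⟨a, ha, rfl⟩, rfl⟩
    exact ⟨f a, ⟨a, ha, rfl⟩, by simp⟩
  · rintro ⟨_, ⟨a, ha, rfl⟩, rfl⟩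
    exact ⟨_, ⟨a, ha, rfl⟩, by simp⟩

theorem mem_L {P H : Subgroup G} {h y : G} (hh : h ∈ H) (hy : y ∈ R P h)
    (hyc : y ∈ centralizer (P : Set G)) : y ∈ L P H :=
  (le_iSup₂ (f := fun h (_ : h ∈ H) => R P h ⊓ centralizer (P : Set G)) h hh) ⟨hy, hyc⟩

theorem L_mono {P K H : Subgroup G} (hKH : K ≤ H) : L P K ≤ L P H :=
  iSup₂_le fun _ hh _ hy => mem_L (hKH hh) hy.1 hy.2

theorem L_le_centralizer (P H : Subgroup G) : L P H ≤ centralizer (P : Set G) :=
  iSup₂_le fun _ _ => inf_le_right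

theorem L_le_commutator (P H : Subgroup G) : L P H ≤ ⁅H, P⁆ :=
  iSup₂_le fun _ hh => inf_le_left.trans (R_le_commutator hh)

theorem L_le_self {P H : Subgroup G} (hP : P ≤ normalizer (H : Set G)) : L P H ≤ H :=
  (L_le_commutator P H).trans (Coprime.commutator_le_of_le_normalizer hP)

theorem map_L_le {G' : Type*} [Group G'] (f : G →* G') (P H : Subgroup G) :
    (L P H).map f ≤ L (P.map f) (H.map f) := by
  rw [L, Subgroup.map_iSup]
  refine iSup_le fun h => ?_
  rw [Subgroup.map_iSup]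
  refine iSup_le fun hh => ?_
  rintro _ ⟨y, ⟨hy, hyc⟩, rfl⟩
  refine mem_L ⟨h, hh, rfl⟩ (by rw [← map_R]; exact ⟨y, hy, rfl⟩) ?_
  rintro _ ⟨a, ha, rfl⟩
  rw [← map_mul, ← map_mul, hyc a ha]

theorem conj_mem_L {P H : Subgroup G} {c y : G} (hcH : c ∈ H) (hc : c ∈ centralizer (P : Set G))
    (hy : y ∈ L P H) : c * y * c⁻¹ ∈ L P H := by
  have h := map_L_le (MulAut.conj c).toMonoidHom P H ⟨y, hy, rfl⟩
  have hP : P.map (MulAut.conj c).toMonoidHom = P :=
    mem_normalizer_iff_map_conj_eq.1 (Coprime.centralizer_le_normalizer' P hc)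
  have hH : H.map (MulAut.conj c).toMonoidHom = H :=
    mem_normalizer_iff_map_conj_eq.1 (le_normalizer hcH)
  rw [hP, hH] at h
  exact h

variable [Finite G]

theorem mem_normalizer_L {P H : Subgroup G} {c : G} (hcH : c ∈ H) (hc : c ∈ centralizer (P : Set G)) :
    c ∈ normalizer (L P H : Set G) :=
  mem_normalizer_iff.2 fun _ => ⟨conj_mem_L hcH hc, fun h => by
    simpa [mul_assoc] using conj_mem_L (inv_mem hcH) (inv_mem hc) h⟩

/-- In an abelian group without fixed points, `h ∈ [h, P]`. -/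
theorem mem_R_self {P H : Subgroup G} [IsMulCommutative H] (hP : P ≤ normalizer (H : Set G))
    (hcop : (Nat.card P).Coprime (Nat.card H)) (hfix : H ⊓ centralizer (P : Set G) = ⊥) {h : G}
    (hh : h ∈ H) : h ∈ R P h := by
  classical
  haveI : Fintype P := Fintype.ofFinite _
  letI : CommGroup H :=
    { (inferInstance : Group H) with mul_comm := fun a b => IsMulCommutative.is_comm.comm a b }
  let σ : P → H := fun a => ⟨a * h * (a : G)⁻¹, (mem_normalizer_iff.1 (hP a.2) h).1 hh⟩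
  set N : H := ∏ a, σ a with hN
  have hfixN : ∀ b : P, (b : G) * N * (b : G)⁻¹ = N := by
    intro b
    let f : H →* H :=
      { toFun := fun v => ⟨b * v * (b : G)⁻¹, (mem_normalizer_iff.1 (hP b.2) v).1 v.2⟩
        map_one' := Subtype.ext (by simp)
        map_mul' := fun v w => Subtype.ext (by simp [mul_assoc]) }
    have h1 : f N = N := by
      rw [hN, map_prod]
      rw [← Equiv.prod_comp (Equiv.mulLeft b) σ]
      exact Finset.prod_congr rfl fun a _ => Subtype.ext (by simp [f, σ, mul_assoc])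
    exact congrArg Subtype.val h1
  have hN1 : (N : G) = 1 := by
    have : (N : G) ∈ H ⊓ centralizer (P : Set G) :=
      ⟨N.2, fun b hb => mul_inv_eq_iff_eq_mul.1 (hfixN ⟨b, hb⟩)⟩
    rwa [hfix, mem_bot] at this
  have hmem : (N * (⟨h, hh⟩ : H)⁻¹ ^ Nat.card P : H) ∈ (R P h).subgroupOf H := by
    rw [hN, Nat.card_eq_fintype_card, ← Finset.card_univ, ← Finset.prod_const,
      ← Finset.prod_mul_distrib]
    refine prod_mem fun a _ => ?_
    rw [mul_comm]
    show h⁻¹ * (a * h * (a : G)⁻¹) ∈ R P h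
    simpa [mul_assoc] using mem_R h a.2
  have hp : (h⁻¹) ^ Nat.card P ∈ R P h := by
    have : ((N * (⟨h, hh⟩ : H)⁻¹ ^ Nat.card P : H) : G) ∈ R P h := hmem
    simpa [hN1] using this
  have hgcd : (h⁻¹ : G) ∈ zpowers ((h⁻¹) ^ Nat.card P) :=
    mem_zpowers_pow_iff.2 (hcop.coprime_dvd_right (by
      rw [orderOf_inv]; exact orderOf_dvd_natCard H hh))
  exact inv_mem_iff.1 (zpowers_le.2 hp hgcd)

end Cfsg.Agent.FG3Gen
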