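import Cfsg.Agent.FG3Gen.Basic

/-!
The minimal situation for the generation of fixed points, and its first consequences.
-/

set_option autoImplicit false
set_option linter.unusedSectionVars false
set_option linter.style.haveILetI false

namespace Cfsg.Agent.FG3Gen

open Subgroup
open scoped commutatorElement

variable {G : Type*} [Group G] [Finite G]

/-- The hypotheses in the inductive step. -/
structure Ctx (P H : Subgroup G) : Prop where
  prime : (Nat.card P).Prime
  odd : 2 < Nat.card P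
  norm : P ≤ normalizer (H : Set G)
  cop : (Nat.card P).Coprime (Nat.card H)
  sol : Group.IsSolvable H
  full : ⁅H, P⁆ = H
  nrm : H.Normal
  top : H ⊔ P = ⊤
  sub : ∀ K : Subgroup G, K ≤ H → P ≤ normalizer (K : Set G) → K ≠ H →
    ⁅K, P⁆ ⊓ centralizer (P : Set G) ≤ L P H
  quot : ∀ N : Subgroup G, N.Normal → N ≤ H → N ≠ ⊥ →
    H ⊓ centralizer (P : Set G) ≤ L P H ⊔ (N ⊓ centralizer (P : Set G))

/-- `(L ∩ Z) [Z, P]`. -/
def W (P H Z : Subgroup G) : Subgroup G := (L P H ⊓ Z) ⊔ ⁅Z, P⁆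

namespace Ctx

variable {P H : Subgroup G}

theorem copK (h : Ctx P H) {K : Subgroup G} (hK : K ≤ H) :
    (Nat.card P).Coprime (Nat.card K) :=
  h.cop.coprime_dvd_right (card_dvd_of_le hK)

theorem solK (h : Ctx P H) {K : Subgroup G} (hK : K ≤ H) :
    Group.IsSolvable P ∨ Group.IsSolvable K :=
  Or.inr (Coprime.isSolvable_of_le hK h.sol)

theorem normal_of (h : Ctx P H) {X : Subgroup G} (hH : H ≤ normalizer (X : Set G))
    (hP : P ≤ normalizer (X : Set G)) : X.Normal :=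
  normalizer_eq_top_iff.1 (top_le_iff.1 (h.top ▸ sup_le hH hP))

theorem le_normalizer_of_normal' {X : Subgroup G} (hX : X.Normal) (Y : Subgroup G) :
    Y ≤ normalizer (X : Set G) := by
  haveI := hX; exact le_normalizer_of_normal

theorem C_le_derived (h : Ctx P H) : H ⊓ centralizer (P : Set G) ≤ ⁅H, H⁆ := by
  haveI := h.nrm
  set D := ⁅H, H⁆ with hD
  haveI : D.Normal := commutator_normal H H
  set f := QuotientGroup.mk' D with hf
  haveI : IsMulCommutative (H.map f) := by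
    refine ⟨⟨?_⟩⟩
    rintro ⟨_, a, ha, rfl⟩ ⟨_, b, hb, rfl⟩
    refine Subtype.ext ?_
    show f a * f b = f b * f a
    rw [← commutatorElement_eq_one_iff_mul_comm, ← map_commutatorElement, hf,
      QuotientGroup.mk'_apply, QuotientGroup.eq_one_iff]
    exact commutator_mem_commutator ha hb
  intro c hc
  have h0 := Coprime.centralizer_inf_commutator_eq_bot (A := P.map f) (V := H.map f)
    ((map_mono h.norm).trans (le_normalizer_map f))
    ((h.cop.coprime_dvd_left (card_map_dvd _ f)).coprime_dvd_right (card_map_dvd _ f))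
  rw [← map_commutator, h.full] at h0
  have : f c ∈ (H.map f ⊓ centralizer ((P.map f : Subgroup (G ⧸ D)) : Set (G ⧸ D))) ⊓ H.map f := by
    refine ⟨⟨⟨c, hc.1, rfl⟩, ?_⟩, ⟨c, hc.1, rfl⟩⟩
    rintro _ ⟨a, ha, rfl⟩
    rw [← map_mul, ← map_mul, hc.2 a ha]
  rw [h0, mem_bot] at this
  exact (QuotientGroup.eq_one_iff c).1 this

theorem mem_R_sup_derived (h : Ctx P H) {x : G} (hx : x ∈ H) : x ∈ R P x ⊔ ⁅H, H⁆ := by
  haveI := h.nrm
  set D := ⁅H, H⁆ with hD
  haveI : D.Normal := commutator_normal H H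
  set f := QuotientGroup.mk' D with hf
  haveI : IsMulCommutative (H.map f) := by
    refine ⟨⟨?_⟩⟩
    rintro ⟨_, a, ha, rfl⟩ ⟨_, b, hb, rfl⟩
    refine Subtype.ext ?_
    show f a * f b = f b * f a
    rw [← commutatorElement_eq_one_iff_mul_comm, ← map_commutatorElement, hf,
      QuotientGroup.mk'_apply, QuotientGroup.eq_one_iff]
    exact commutator_mem_commutator ha hb
  have hcopf : (Nat.card (P.map f)).Coprime (Nat.card (H.map f)) :=
    (h.cop.coprime_dvd_left (card_map_dvd _ f)).coprime_dvd_right (card_map_dvd _ f)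
  have hnf : P.map f ≤ normalizer (H.map f : Set (G ⧸ D)) :=
    (map_mono h.norm).trans (le_normalizer_map f)
  have hfix : H.map f ⊓ centralizer ((P.map f : Subgroup (G ⧸ D)) : Set (G ⧸ D)) = ⊥ := by
    have h0 := Coprime.centralizer_inf_commutator_eq_bot (A := P.map f) (V := H.map f) hnf hcopf
    rw [← map_commutator, h.full] at h0
    rw [eq_bot_iff, ← h0]
    exact le_inf le_rfl inf_le_left
  have := mem_R_self hnf hcopf hfix ⟨x, hx, rfl⟩
  rw [← map_R, ← mem_comap, comap_map_eq, hf, QuotientGroup.ker_mk'] at this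
  exact this

theorem mem_W_of_proper (h : Ctx P H) {Z K : Subgroup G} (hZ : Z ≤ H)
    (hPZ : P ≤ normalizer (Z : Set G)) (hK : K ≤ H)
    (hPK : P ≤ normalizer (K : Set G)) (hne : K ≠ H) {z : G} (hz : z ∈ Z) (hzK : z ∈ ⁅K, P⁆) :
    z ∈ W P H Z := by
  have hKP : P ≤ normalizer (⁅K, P⁆ : Subgroup G) := Coprime.le_normalizer_commutator_right K P
  obtain ⟨c, hc, u, hu, rfl⟩ := Coprime.exists_mul_commutator (A := P) (K := Z ⊓ ⁅K, P⁆)
    ((le_inf hPZ hKP).trans inf_normalizer_le_normalizer_inf) (h.copK (inf_le_left.trans hZ))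
    (h.solK (inf_le_left.trans hZ)) (k := z) ⟨hz, hzK⟩
  exact mul_mem (mem_sup_left ⟨h.sub K hK hPK hne ⟨hc.1.2, hc.2⟩, hc.1.1⟩)
    (mem_sup_right (commutator_mono inf_le_left le_rfl hu))

theorem fixed_le_L_of_le_W (h : Ctx P H) {Z : Subgroup G} [IsMulCommutative Z] (hZ : Z ≤ H)
    (hPZ : P ≤ normalizer (Z : Set G)) (hW : Z ≤ W P H Z) :
    Z ⊓ centralizer (P : Set G) ≤ L P H := by
  intro c hc
  have hle : ⁅Z, P⁆ ≤ Z := Coprime.commutator_le_of_le_normalizer hPZ
  have hn : L P H ⊓ Z ≤ normalizer (⁅Z, P⁆ : Subgroup G) :=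
    inf_le_right.trans (Coprime.le_normalizer_commutator_left Z P)
  obtain ⟨l, hl, u, hu, rfl⟩ := (by have h2 := hW hc.1; rw [W, ← SetLike.mem_coe, coe_mul_of_left_le_normalizer_right _ _ hn] at h2; exact Set.mem_mul.1 h2 : ∃ l ∈ (L P H ⊓ Z : Subgroup G), ∃ u ∈ (⁅Z, P⁆ : Subgroup G), l * u = _)
  have hu' : u ∈ (Z ⊓ centralizer (P : Set G)) ⊓ ⁅Z, P⁆ := by
    refine ⟨⟨hle hu, ?_⟩, hu⟩
    have := mul_mem (inv_mem (L_le_centralizer P H hl.1)) hc.2
    simpa using this
  rw [Coprime.centralizer_inf_commutator_eq_bot hPZ (h.copK hZ), mem_bot] at hu'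
  rw [hu', mul_one]
  exact hl.1

theorem C_le_of_fixed_le (h : Ctx P H) {N : Subgroup G} (hN : N.Normal) (hle : N ≤ H)
    (hne : N ≠ ⊥) (hfix : N ⊓ centralizer (P : Set G) ≤ L P H) :
    H ⊓ centralizer (P : Set G) ≤ L P H :=
  (h.quot N hN hle hne).trans (sup_le le_rfl hfix)

/-- A normal `N` and the fixed points: `c = l n` with `n` fixed in `N`. -/
theorem exists_mul (h : Ctx P H) {N : Subgroup G} (hN : N.Normal) (hle : N ≤ H) (hne : N ≠ ⊥)
    {c : G} (hc : c ∈ H ⊓ centralizer (P : Set G)) :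
    ∃ l ∈ L P H, ∃ n ∈ N ⊓ centralizer (P : Set G), c = l * n := by
  have hn : N ⊓ centralizer (P : Set G) ≤ normalizer (L P H : Set G) :=
    fun _ hx => mem_normalizer_L (hle hx.1) hx.2
  have := h.quot N hN hle hne hc
  rw [sup_comm, ← SetLike.mem_coe, coe_mul_of_left_le_normalizer_right _ _ hn] at this
  obtain ⟨n, hn', l, hl, rfl⟩ := Set.mem_mul.1 this
  exact ⟨n * l * n⁻¹, conj_mem_L (hle hn'.1) hn'.2 hl, n, hn', by group⟩

end Ctx

end Cfsg.Agent.FG3Gen
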