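import Cfsg.Agent.FG3Gen.Central
import Cfsg.Agent.OddChar.FixedPoint

/-!
The case of a minimal normal subgroup that is not central.
-/

set_option autoImplicit false
set_option linter.unusedSectionVars false
set_option linter.style.haveILetI false

namespace Cfsg.Agent.FG3Gen

open Subgroup
open scoped commutatorElement Pointwise

variable {G : Type*} [Group G] [Finite G] {P H : Subgroup G}

theorem conj_mem_of {X : Subgroup G} {y w : G} (hy : y ∈ normalizer (X : Set G)) (hw : w ∈ X) :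
    y * w * y⁻¹ ∈ X :=
  (mem_normalizer_iff.1 hy w).1 hw

/-- `H` is contained in every subgroup containing a Sylow subgroup of `H` for each prime. -/
theorem le_of_sylow_le {X : Subgroup G} (hXH : X ≤ H)
    (hX : ∀ q : ℕ, q.Prime → ∃ S : Sylow q H, (S : Subgroup H).map H.subtype ≤ X) : H ≤ X := by
  refine (eq_of_le_of_card_ge hXH (Nat.le_of_dvd Nat.card_pos ?_)).ge
  rw [← Nat.factorization_prime_le_iff_dvd Nat.card_pos.ne' Nat.card_pos.ne']
  intro q hq
  haveI := Fact.mk hq
  obtain ⟨S, hS⟩ := hX q hq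
  have h := card_dvd_of_le hS
  rw [Coprime.card_sylow_map] at h
  exact (hq.pow_dvd_iff_le_factorization Nat.card_pos.ne').1 h

/-- The exceptional Frobenius situation is impossible. -/
theorem frobenius_case (h : Ctx P H) {V Q : Subgroup G} (hV : V.Normal) (hVH : V ≤ H)
    [IsMulCommutative V] [IsMulCommutative Q] (hQH : Q ≤ H) (hPQ : P ≤ normalizer (Q : Set G))
    (hQP : Q ⊓ centralizer (P : Set G) = ⊥) (hd : Q ⊓ V = ⊥)
    (hVQ : V ⊓ centralizer (Q : Set G) = ⊥)
    (hcop : (Nat.card V).Coprime (Nat.card Q))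
    (hle : Nat.card V ≤ Nat.card ↥(V ⊓ centralizer (P : Set G)) ^ 2) :
    V ⊓ centralizer (P : Set G) = ⊥ := by
  haveI := Fact.mk h.prime
  have hc : Nat.Coprime (Nat.card V) (Nat.card ↥(Q ⊔ P)) := by
    rw [sup_comm, Coprime.card_sup_of_coprime hPQ (h.copK hQH)]
    exact (h.copK hVH).symm.mul_right hcop
  have hUn : ∀ e ∈ P, ∀ u ∈ Q, e * u * e⁻¹ ∈ Q := fun e he u hu => conj_mem_of (hPQ he) hu
  have hfpf : ∀ e ∈ P, e ≠ 1 → ∀ u ∈ Q, e * u = u * e → u = 1 := by
    intro e he he1 u hu heu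
    have hz : zpowers e = P := by
      refine eq_of_le_of_card_ge (zpowers_le.2 he) (Nat.le_of_eq ?_)
      rw [Nat.card_zpowers]
      refine ((h.prime.eq_one_or_self_of_dvd _ (orderOf_dvd_natCard P he)).resolve_left ?_).symm
      rwa [orderOf_eq_one_iff]
    have : u ∈ Q ⊓ centralizer (P : Set G) := by
      refine ⟨hu, ?_⟩
      rw [← hz]
      rintro w ⟨k, rfl⟩
      exact ((show Commute e u from heu).zpow_left k).eq
    rwa [hQP, mem_bot] at this
  have hform := OddChar.FixedPoint.frobenius_fixed_of_normalized Q P V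
    (inf_eq_bot_of_coprime (h.copK hQH).symm) hUn hfpf
    (fun x _ w hw => hV.conj_mem w hw x) (Coprime.isSolvable_of_le hVH h.sol) hc
  have h1 : V ⊓ centralizer ((Q ⊔ P : Subgroup G) : Set G) = ⊥ := by
    rw [eq_bot_iff, ← hVQ]
    exact inf_le_inf le_rfl (centralizer_le (SetLike.coe_subset_coe.2 le_sup_left))
  rw [h1, hVQ, card_bot, one_pow, one_mul, mul_one] at hform
  set c := Nat.card ↥(V ⊓ centralizer (P : Set G)) with hc'
  by_contra hne
  have hc1 : 1 < c := (Finite.one_lt_card_iff_nontrivial).2 ((nontrivial_iff_ne_bot _).2 hne)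
  have := Nat.pow_lt_pow_right hc1 h.odd
  omega

/-- The case of a minimal normal subgroup `V` with `[V, H] ≠ 1`. -/
theorem faithful_case (h : Ctx P H) {V : Subgroup G} (hV : V.Normal) (hVH : V ≤ H)
    [IsMulCommutative V] {l : ℕ} [Fact l.Prime] (hl : IsPGroup l V)
    (hmin : ∀ X : Subgroup G, X.Normal → X ≤ V → X = ⊥ ∨ X = V) (hne : ⁅V, H⁆ ≠ ⊥) :
    H ⊓ centralizer (P : Set G) ≤ L P H := by
  haveI := hV
  haveI := h.nrm
  have hVne : V ≠ ⊥ := fun hb => hne (by rw [hb, commutator_bot_left])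
  have hVVH : ⁅V, H⁆ = V :=
    (hmin _ (commutator_normal V H) (commutator_le_left V H)).resolve_left hne
  have hVcH : V ⊓ centralizer (H : Set G) = ⊥ := by
    refine (hmin _ inferInstance inf_le_left).resolve_right fun he => hne ?_
    exact commutator_eq_bot_iff_le_centralizer.2 (he ▸ inf_le_right)
  have hVab : ∀ a ∈ V, ∀ b ∈ V, a * b = b * a := fun a ha b hb =>
    congrArg Subtype.val (IsMulCommutative.is_comm.comm (⟨a, ha⟩ : V) ⟨b, hb⟩)
  have hVn : ∀ y : G, y ∈ normalizer (V : Set G) := fun y =>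
    Ctx.le_normalizer_of_normal' hV ⊤ (mem_top y)
  have hVv : ∀ v ∈ V, ∀ y, ⁅v, y⁆ ∈ V := fun v hv y => by
    rw [commutatorElement_def, mul_assoc, mul_assoc, ← mul_assoc y]
    exact mul_mem hv (hV.conj_mem _ (inv_mem hv) y)
  have hPV : P ≤ normalizer (V : Set G) := fun y _ => hVn y
  have hWV : W P H V ≤ V :=
    sup_le inf_le_right (Coprime.commutator_le_of_le_normalizer hPV)
  have finish : V ≤ W P H V → H ⊓ centralizer (P : Set G) ≤ L P H := fun hW =>
    h.C_le_of_fixed_le hV hVH hVne (h.fixed_le_L_of_le_W hVH hPV hW)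
  -- elements whose commutators with `V` lie in `W`
  have hmul : ∀ a b : G, (∀ v ∈ V, ⁅v, a⁆ ∈ W P H V) → (∀ v ∈ V, ⁅v, b⁆ ∈ W P H V) →
      ∀ v ∈ V, ⁅v, a * b⁆ ∈ W P H V := by
    intro a b ha hb v hv
    have hw := hb v hv
    have h2 := ha _ (hWV hw)
    have e : ⁅v, a * b⁆ = ⁅v, a⁆ * (⁅⁅v, b⁆, a⁆⁻¹ * ⁅v, b⁆) := by
      simp only [commutatorElement_def, mul_inv_rev, inv_inv, mul_assoc, mul_inv_cancel_left,
        inv_mul_cancel_left, inv_mul_cancel, mul_inv_cancel, mul_one]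
    rw [e]
    exact mul_mem (ha v hv) (mul_mem (inv_mem h2) hw)
  have hgen : ∀ X : Subgroup G, H ≤ X → ∀ S : Set G, closure S = X →
      (∀ y ∈ S, ∀ v ∈ V, ⁅v, y⁆ ∈ W P H V) → V ≤ W P H V := by
    intro X hX S hS hSW
    have hall : ∀ y ∈ closure S, ∀ v ∈ V, ⁅v, y⁆ ∈ W P H V := by
      intro y hy
      rw [← SetLike.mem_coe, ← coe_toSubmonoid, closure_toSubmonoid_of_finite] at hy
      induction hy using Submonoid.closure_induction with
      | mem y hy => exact hSW y hy
      | one => intro v _; rw [commutatorElement_one_right]; exact one_mem _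
      | mul a b _ _ ha hb => exact hmul a b ha hb
    conv_lhs => rw [← hVVH]
    exact commutator_le.2 fun v hv y hy => hall y (hS.symm ▸ hX hy) v hv
  have hproper : ∀ K : Subgroup G, K ≤ H → P ≤ normalizer (K : Set G) → K ≠ H → V ≤ K →
      ∀ y ∈ (⁅K, P⁆ : Subgroup G), ∀ v ∈ V, ⁅v, y⁆ ∈ W P H V := by
    intro K hKH hPK hKne hVK y hy v hv
    refine h.mem_W_of_proper hVH hPV hKH hPK hKne (hVv v hv y) ?_
    rw [commutatorElement_def]
    exact mul_mem (conj_mem_of (Coprime.le_normalizer_commutator_left K P (hVK hv)) hy) (inv_mem hy)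
  set 𝒬 : Set (Subgroup G) := {Q | ∃ q : ℕ, q.Prime ∧ IsPGroup q Q ∧ Q ≤ H ∧
    P ≤ normalizer (Q : Set G) ∧ ⁅Q, P⁆ = Q} with h𝒬
  by_cases hex : ∃ Q ∈ 𝒬, Q ⊔ V = H
  swap
  · -- `H` is generated by the members of `𝒬`, none of which complements `V`
    push_neg at hex
    set U : Set G := {y | ∃ Q ∈ 𝒬, y ∈ Q} with hU
    have hUH : closure U ≤ H := (closure_le _).2 fun y ⟨Q, hQ, hy⟩ => by
      obtain ⟨q, -, -, hQH, -, -⟩ := hQ; exact hQH hy
    refine finish (hgen _ ?_ U rfl ?_)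
    swap
    · rintro y ⟨Q, hQ, hy⟩
      have hne' := hex Q hQ
      obtain ⟨q, -, -, hQH, hPQ, hQP⟩ := hQ
      refine hproper (Q ⊔ V) (sup_le hQH hVH) ?_ hne' le_sup_right y
        (commutator_mono le_sup_left le_rfl (hQP.symm ▸ hy))
      exact (le_inf hPQ hPV).trans (normalizer_inf_normalizer_le_normalizer_sup _ _)
    -- generation
    have hCn : H ⊓ centralizer (P : Set G) ≤ normalizer (closure U : Set G) := by
      intro c hc
      have key : ∀ d ∈ H ⊓ centralizer (P : Set G), ∀ y ∈ closure U, d * y * d⁻¹ ∈ closure U := by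
        intro d hd y hy
        refine ((closure_le ((closure U).comap (MulAut.conj d).toMonoidHom)).2 ?_ hy :)
        rintro w ⟨Q, ⟨q, hq, hQq, hQH, hPQ, hQP⟩, hw⟩
        have hP' : P.map (MulAut.conj d).toMonoidHom = P :=
          mem_normalizer_iff_map_conj_eq.1 (Coprime.centralizer_le_normalizer' P hd.2)
        refine subset_closure ⟨Q.map (MulAut.conj d).toMonoidHom,
          ⟨q, hq, hQq.map _, ?_, ?_, ?_⟩, ⟨w, hw, rfl⟩⟩
        · rintro _ ⟨z, hz, rfl⟩; exact conj_mem_of (le_normalizer hd.1) (hQH hz)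
        · conv_lhs => rw [← hP']
          exact (map_mono hPQ).trans (le_normalizer_map _)
        · conv_lhs => rw [← hP']
          rw [← map_commutator, hQP]
      refine mem_normalizer_iff.2 fun y => ⟨key c hc y, fun hy => ?_⟩
      simpa [mul_assoc] using key c⁻¹ (inv_mem hc) _ hy
    have hCU : H ≤ (H ⊓ centralizer (P : Set G)) ⊔ closure U := by
      refine le_of_sylow_le (sup_le inf_le_left hUH) fun q hq => ?_
      haveI := Fact.mk hq
      obtain ⟨S, hS⟩ := Coprime.exists_invariant_sylow (p := q) h.norm h.cop (Or.inr h.sol)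
      refine ⟨S, fun y hy => ?_⟩
      have hSH : (S : Subgroup H).map H.subtype ≤ H := map_subtype_le _
      obtain ⟨c, hc, u, hu, rfl⟩ :=
        Coprime.exists_mul_commutator hS (h.copK hSH) (h.solK hSH) hy
      refine mul_mem (mem_sup_left ⟨hSH hc.1, hc.2⟩) (mem_sup_right (subset_closure
        ⟨_, ⟨q, hq, ?_, ?_, Coprime.le_normalizer_commutator_right _ P, ?_⟩, hu⟩))
      · exact (S.isPGroup'.map H.subtype).to_le (Coprime.commutator_le_of_le_normalizer hS)
      · exact (Coprime.commutator_le_of_le_normalizer hS).trans hSH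
      · exact Coprime.commutator_commutator_of_solvable hS (h.copK hSH) (h.solK hSH)
    have hPn : P ≤ normalizer (closure U : Set G) := by
      intro g hg
      have key : ∀ d ∈ P, ∀ y ∈ closure U, d * y * d⁻¹ ∈ closure U := by
        intro d hd y hy
        refine ((closure_le ((closure U).comap (MulAut.conj d).toMonoidHom)).2 ?_ hy :)
        rintro w ⟨Q, hQ, hw⟩
        obtain ⟨q, hq, hQq, hQH, hPQ, hQP⟩ := hQ
        exact subset_closure ⟨Q, ⟨q, hq, hQq, hQH, hPQ, hQP⟩, conj_mem_of (hPQ hd) hw⟩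
      refine mem_normalizer_iff.2 fun y => ⟨key g hg y, fun hy => ?_⟩
      simpa [mul_assoc] using key g⁻¹ (inv_mem hg) _ hy
    haveI hn : (closure U).Normal :=
      h.normal_of (hCU.trans (sup_le hCn le_normalizer)) hPn
    set f := QuotientGroup.mk' (closure U) with hf
    have hmap : H.map f ≤ centralizer ((P.map f : Subgroup _) : Set (G ⧸ closure U)) := by
      refine (map_mono hCU).trans ?_
      rw [Subgroup.map_sup, QuotientGroup.map_mk'_self, sup_bot_eq]
      rintro _ ⟨c, hc, rfl⟩ _ ⟨g, hg, rfl⟩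
      rw [← map_mul, ← map_mul, hc.2 g hg]
    have := commutator_eq_bot_iff_le_centralizer.2 hmap
    rw [← map_commutator, h.full, Subgroup.map_eq_bot_iff, hf, QuotientGroup.ker_mk'] at this
    exact this
  -- `H = Q V`
  obtain ⟨Q, ⟨q, hq, hQq, hQH, hPQ, hQP⟩, hQV⟩ := hex
  haveI := Fact.mk hq
  rcases eq_or_ne q l with rfl | hql
  · have : IsPGroup q H := hQV ▸ hQq.to_sup_of_normal_right hl
    haveI := this.isNilpotent
    exact nilpotent_case h
  obtain ⟨j, hj⟩ := hQq.exists_card_eq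
  obtain ⟨i, hi⟩ := hl.exists_card_eq
  have hcop : (Nat.card V).Coprime (Nat.card Q) := by
    rw [hi, hj]
    exact Nat.coprime_pow_primes _ _ Fact.out hq hql.symm
  have hd : Q ⊓ V = ⊥ := inf_eq_bot_of_coprime hcop.symm
  have hcardH : Nat.card H = Nat.card Q * Nat.card V := by
    rw [← hQV, Coprime.card_sup_of_disjoint (fun y _ => hVn y) hd]
  haveI hQnil : Group.IsNilpotent Q := hQq.isNilpotent
  have hQn : ∀ {X : Subgroup G}, Q ≤ normalizer (X : Set G) → V ≤ normalizer (X : Set G) →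
      P ≤ normalizer (X : Set G) → X.Normal := fun h1 h2 h3 =>
    h.normal_of (hQV ▸ sup_le h1 h2) h3
  set K := Q ⊓ centralizer (V : Set G) with hK
  have hKn : K.Normal := by
    refine hQn ((le_inf le_normalizer (fun y _ => Ctx.le_normalizer_of_normal' inferInstance ⊤
      (mem_top y))).trans inf_normalizer_le_normalizer_inf) ?_ ((le_inf hPQ (fun y _ =>
        Ctx.le_normalizer_of_normal' inferInstance ⊤ (mem_top y))).trans
          inf_normalizer_le_normalizer_inf)
    exact fun v hv => Coprime.centralizer_le_normalizer' _ fun w hw => (hw.2 v hv).symm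
  rcases ne_or_eq K ⊥ with hK0 | hK0
  · refine h.C_le_of_fixed_le hV hVH hVne fun c hc => ?_
    obtain ⟨m, hm, n, hn, he⟩ := h.exists_mul hKn (inf_le_left.trans hQH) hK0 ⟨hVH hc.1, hc.2⟩
    -- `c` is a power of `m = c n⁻¹`
    have hcn : Commute c n⁻¹ := (show Commute c n from hn.1.2 c hc.1).inv_right
    have hm' : m = c * n⁻¹ := eq_mul_inv_of_mul_eq he.symm
    have hon : n⁻¹ ^ Nat.card Q = 1 :=
      orderOf_dvd_iff_pow_eq_one.1 (orderOf_dvd_natCard Q (inv_mem hn.1.1))
    have hp : c ^ Nat.card Q ∈ L P H := by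
      have := pow_mem hm (Nat.card Q)
      rwa [hm', hcn.mul_pow, hon, mul_one] at this
    exact zpowers_le.2 hp (mem_zpowers_pow_iff.2
      (hcop.symm.coprime_dvd_right (orderOf_dvd_natCard V hc.1)))
  set D := ⁅Q, Q⁆ with hD
  have hDQ : D ≤ Q := commutator_le_self Q
  have hCV : ∀ y ∈ H ⊓ centralizer (P : Set G), y ∈ normalizer (W P H V : Set G) := fun y hy => by
    refine normalizer_inf_normalizer_le_normalizer_sup _ _ ⟨?_, ?_⟩
    · exact inf_normalizer_le_normalizer_inf ⟨mem_normalizer_L hy.1 hy.2, hVn y⟩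
    · exact Coprime.normalizer_inf_le_normalizer_commutator V P
        ⟨hVn y, Coprime.centralizer_le_normalizer' P hy.2⟩
  rcases ne_or_eq D ⊥ with hD0 | hD0
  · have hPD : P ≤ normalizer (D : Set G) :=
      (le_inf hPQ hPQ).trans (Coprime.normalizer_inf_le_normalizer_commutator Q Q)
    have hDH := hDQ.trans hQH
    have hXle : ⁅V, D⁆ ≤ V := commutator_le_left V D
    have hXn : (⁅V, D⁆ : Subgroup G).Normal := by
      refine hQn ?_ ?_ ((le_inf hPV hPD).trans (Coprime.normalizer_inf_le_normalizer_commutator V D))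
      · exact (le_inf (fun y _ => hVn y) (Coprime.le_normalizer_commutator_left Q Q)).trans
          (Coprime.normalizer_inf_le_normalizer_commutator V D)
      · exact fun v hv => Coprime.centralizer_le_normalizer' _ fun w hw => hVab w (hXle hw) v hv
    have hXV : ⁅V, D⁆ = V := by
      refine (hmin _ hXn hXle).resolve_left fun he => hD0 ?_
      rw [eq_bot_iff, ← hK0]
      exact le_inf hDQ (le_centralizer_iff.1 (commutator_eq_bot_iff_le_centralizer.1 he))
    refine finish ?_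
    conv_lhs => rw [← hXV]
    rw [commutator_le]
    intro v hv b hb
    obtain ⟨b₀, hb₀, b₁, hb₁, rfl⟩ :=
      Coprime.exists_mul_commutator hPD (h.copK hDH) (h.solK hDH) hb
    set K₁ := ⁅D, P⁆ ⊔ V with hK₁
    have hK₁D : ⁅D, P⁆ ≤ D := Coprime.commutator_le_of_le_normalizer hPD
    have hK₁ne : K₁ ≠ H := by
      intro he
      have hcd : Nat.card ↥(⁅D, P⁆ : Subgroup G) = Nat.card Q := by
        have := Coprime.card_sup_of_disjoint (A := (⁅D, P⁆ : Subgroup G)) (K := V)
          (fun y _ => hVn y) (eq_bot_iff.2 (hd ▸ inf_le_inf (hK₁D.trans hDQ) le_rfl))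
        rw [← hK₁, he, hcardH] at this
        exact (Nat.eq_of_mul_eq_mul_right Nat.card_pos this).symm
      have hQD : Q ≤ D := (eq_of_le_of_card_ge (hK₁D.trans hDQ) hcd.ge).ge.trans hK₁D
      exact hD0 (eq_bot_iff.2 ((LocalEven.eq_bot_of_le_commutator (S := Q) le_rfl hQD) ▸ hDQ))
    have hPK₁ : P ≤ normalizer (K₁ : Set G) :=
      (le_inf (Coprime.le_normalizer_commutator_right D P) hPV).trans
        (normalizer_inf_normalizer_le_normalizer_sup _ _)
    have h1 : ∀ v ∈ V, ⁅v, b₁⁆ ∈ W P H V := by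
      refine hproper K₁ (sup_le (hK₁D.trans hDH) hVH) hPK₁ hK₁ne le_sup_right b₁ ?_
      rw [← Coprime.commutator_commutator_of_solvable hPD (h.copK hDH) (h.solK hDH)] at hb₁
      exact commutator_mono le_sup_left le_rfl hb₁
    have h0 : ∀ v ∈ V, ⁅v, b₀⁆ ∈ W P H V := by
      intro v hv
      obtain ⟨c, hc, u, hu, rfl⟩ :=
        Coprime.exists_mul_commutator hPV (h.copK hVH) (h.solK hVH) hv
      have huV : u ∈ V := Coprime.commutator_le_of_le_normalizer hPV hu
      have e : ⁅c * u, b₀⁆ = ⁅u, b₀⁆ * ⁅c, b₀⁆ := by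
        rw [commutatorElement_mul_left_eq_conj_mul, hVab c hc.1 _ (hVv u huV b₀), mul_inv_cancel_right]
      rw [e]
      refine mul_mem (mem_sup_right ?_) (mem_sup_left ⟨?_, hVv c hc.1 b₀⟩)
      · rw [commutatorElement_def, mul_assoc, mul_assoc, ← mul_assoc b₀]
        exact mul_mem hu (conj_mem_of (Coprime.normalizer_inf_le_normalizer_commutator V P
          ⟨hVn b₀, Coprime.centralizer_le_normalizer' P hb₀.2⟩) (inv_mem hu))
      · obtain ⟨m, hm, n, hn, rfl⟩ := h.exists_mul hV hVH hVne ⟨hDH hb₀.1, hb₀.2⟩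
        rw [commutatorElement_mul_right_eq_mul_conj, commutatorElement_eq_one_iff_mul_comm.2
          (hVab c hc.1 n hn.1), mul_one, mul_inv_cancel_right, commutatorElement_def]
        exact (L P H).mul_mem (conj_mem_L (hVH hc.1) hc.2 hm) ((L P H).inv_mem hm)
    exact hmul b₀ b₁ h0 h1 v hv
  -- `Q` abelian
  haveI : IsMulCommutative Q := ⟨⟨fun a b => Subtype.ext
    (commutatorElement_eq_one_iff_mul_comm.1 (mem_bot.1 (hD0 ▸ commutator_mem_commutator a.2 b.2)))⟩⟩
  have hQfix : Q ⊓ centralizer (P : Set G) = ⊥ := by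
    have h0 := Coprime.centralizer_inf_commutator_eq_bot hPQ (h.copK hQH)
    rw [hQP] at h0
    rw [eq_bot_iff, ← h0]
    exact le_inf le_rfl inf_le_left
  have hRQ : ∀ a ∈ Q, R P a ≤ Q := fun a ha => (R_le_commutator ha).trans hQP.le
  by_cases hexa : ∃ a ∈ Q, R P a ⊔ V = H
  swap
  · push_neg at hexa
    refine finish (hgen (closure ((Q : Set G) ∪ V)) ?_ ((Q : Set G) ∪ V) rfl ?_)
    · rw [Subgroup.closure_union, closure_eq, closure_eq, hQV]
    · rintro y (hy | hy) v hv
      · have hRn : P ≤ normalizer ((R P y ⊔ V : Subgroup G) : Set G) :=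
          (le_inf (le_normalizer_R P y) hPV).trans (normalizer_inf_normalizer_le_normalizer_sup _ _)
        have hyR := mem_R_self hPQ (h.copK hQH) hQfix hy
        have hle : R P y ≤ ⁅R P y ⊔ V, P⁆ := R_le_commutator (mem_sup_left hyR)
        exact hproper (R P y ⊔ V) (sup_le ((hRQ y hy).trans hQH) hVH) hRn (hexa y hy) le_sup_right
          y (hle hyR) v hv
      · rw [commutatorElement_eq_one_iff_mul_comm.2 (hVab v hv y hy)]; exact one_mem _
  obtain ⟨a, ha, haH⟩ := hexa
  refine h.C_le_of_fixed_le hV hVH hVne ?_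
  have hVQ : V ⊓ centralizer (Q : Set G) = ⊥ := by
    rw [eq_bot_iff, ← hVcH]
    rintro v ⟨hv, hvc⟩
    refine ⟨hv, ?_⟩
    rw [← hQV, sup_eq_closure, centralizer_closure]
    rintro y (hy | hy)
    exacts [hvc y hy, (hVab v hv y hy).symm]
  by_cases hbig : ∃ v ∈ V, V ≤ R P (a * v)
  · obtain ⟨v, hv, hVR⟩ := hbig
    exact fun c hc => mem_L (mul_mem (hQH ha) (hVH hv)) (hVR hc.1) hc.2
  push_neg at hbig
  suffices hle : Nat.card V ≤ Nat.card ↥(V ⊓ centralizer (P : Set G)) ^ 2 by
    rw [frobenius_case h hV hVH hQH hPQ hQfix hd hVQ hcop hle]; exact bot_le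
  have hsur : ∀ v ∈ V, ∃ x ∈ V ⊓ centralizer (P : Set G), ∃ y ∈ V ⊓ centralizer (P : Set G),
      v = a⁻¹ * x * a * y := by
    intro v hv
    set m := a * v with hm
    have hmH : m ∈ H := mul_mem (hQH ha) (hVH hv)
    have hRH : R P m ≤ H := (R_le_commutator hmH).trans h.full.le
    have hsup : R P m ⊔ V = H := by
      refine le_antisymm (sup_le hRH hVH) ?_
      rw [← haH]
      refine sup_le ((closure_le _).2 ?_) le_sup_right
      rintro _ ⟨g, hg, rfl⟩
      have e : a⁻¹ * g * a * g⁻¹ = v * (m⁻¹ * g * m * g⁻¹) * (g * v * g⁻¹)⁻¹ := by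
        rw [hm]; group
      rw [e]
      exact mul_mem (mul_mem (mem_sup_right hv) (mem_sup_left (mem_R m hg)))
        (mem_sup_right (inv_mem (hV.conj_mem v hv g)))
    have hMn : (R P m ⊓ V).Normal := by
      refine h.normal_of (hsup ▸ sup_le ?_ ?_)
        ((le_inf (le_normalizer_R P m) hPV).trans inf_normalizer_le_normalizer_inf)
      · exact (le_inf le_normalizer (fun y _ => hVn y)).trans inf_normalizer_le_normalizer_inf
      · exact fun y hy => Coprime.centralizer_le_normalizer' _ fun w hw => hVab w hw.2 y hy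
    have hM0 : R P m ⊓ V = ⊥ :=
      (hmin _ hMn inf_le_right).resolve_right fun he => hbig v hv (he ▸ inf_le_left)
    have hcR : Nat.card ↥(R P m) = Nat.card Q := by
      have := Coprime.card_sup_of_disjoint (fun y _ => hVn y) hM0
      rw [hsup, hcardH] at this
      exact (Nat.eq_of_mul_eq_mul_right Nat.card_pos this).symm
    have hfac : (Nat.card H).factorization q = j := by
      rw [hcardH, hj, Nat.factorization_mul (pow_ne_zero _ hq.ne_zero) Nat.card_pos.ne',
        Finsupp.add_apply, hq.factorization_pow, Finsupp.single_eq_same,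
        Nat.factorization_eq_zero_of_not_dvd fun hdv => hql ((Nat.prime_dvd_prime_iff_eq hq Fact.out).1
          (hq.dvd_of_dvd_pow (hi ▸ hdv))), add_zero]
    obtain ⟨S, hS⟩ := Coprime.exists_sylow_map_eq (p := q) hQH (by rw [hfac, hj])
    obtain ⟨S', hS'⟩ := Coprime.exists_sylow_map_eq (p := q) hRH (by rw [hfac, hcR, hj])
    obtain ⟨w, hw, hwQ⟩ := Coprime.exists_centralizer_conj_sylow h.norm h.cop (Or.inr h.sol) S S'
      (hS ▸ hPQ) (hS' ▸ le_normalizer_R P m)
    rw [hS, hS'] at hwQ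
    -- `w` lies in `V`
    have hwV : w ∈ V := by
      have hw1 := hQV.symm ▸ hw.1
      obtain ⟨x, hx, y, hy, rfl⟩ := Coprime.exists_mul_of_mem_sup (fun z _ => hVn z) hw1
      obtain ⟨x', hx', y', hy', e⟩ := Coprime.exists_mul_fixed hPQ hPV
        (by rw [hd, card_bot]; exact Nat.coprime_one_right _) (Or.inr (by rw [hd]; infer_instance))
        hx hy hw.2
      rw [hQfix, mem_bot] at hx'
      rw [e, hx', one_mul]
      exact hy'.1
    set v' := a⁻¹ * w⁻¹ * a * v * w with hv'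
    have hv'V : v' ∈ V := mul_mem (mul_mem (by
      have := hV.conj_mem _ (inv_mem hwV) a⁻¹; simpa using this) hv) hwV
    have hfixv : a * v' * a⁻¹ ∈ centralizer (P : Set G) := by
      intro g hg
      have h1 : m⁻¹ * g * m * g⁻¹ ∈ MulAut.conj w • Q := hwQ.symm ▸ mem_R m hg
      rw [Coprime.mem_conj_smul] at h1
      have hga : a⁻¹ * g * a * g⁻¹ ∈ Q := (hRQ a ha) (mem_R a hg)
      have hgw : g * w = w * g := hw.2 g hg
      have h2 : v'⁻¹ * ((a⁻¹ * g * a * g⁻¹) * (g * v' * g⁻¹) * (a⁻¹ * g * a * g⁻¹)⁻¹) ∈ Q ⊓ V := by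
        refine ⟨?_, V.mul_mem (V.inv_mem hv'V) (hV.conj_mem _ (hV.conj_mem _ hv'V g) _)⟩
        have e : v'⁻¹ * ((a⁻¹ * g * a * g⁻¹) * (g * v' * g⁻¹) * (a⁻¹ * g * a * g⁻¹)⁻¹) =
            (w⁻¹ * (m⁻¹ * g * m * g⁻¹) * w) * (a⁻¹ * g * a * g⁻¹)⁻¹ := by
          have hgw' : w⁻¹ * g = g * w⁻¹ := by
            rw [inv_mul_eq_iff_eq_mul, ← mul_assoc, ← hgw, mul_inv_cancel_right]
          have hgw'' : g⁻¹ * w = w * g⁻¹ := by
            rw [inv_mul_eq_iff_eq_mul, ← mul_assoc, hgw, mul_inv_cancel_right]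
          have e1 : w * g * w⁻¹ = g := by rw [← hgw, mul_inv_cancel_right]
          calc _ = w⁻¹ * v⁻¹ * a⁻¹ * (w * g * w⁻¹) * a * v * (g⁻¹ * w)⁻¹⁻¹ *
                (a⁻¹ * g * a * g⁻¹)⁻¹ := by
                rw [hv', hgw'']; group
            _ = _ := by rw [e1, hm]; group
        rw [e]
        exact Q.mul_mem h1 (Q.inv_mem hga)
      rw [hd, mem_bot, inv_mul_eq_one] at h2
      have : g * (a * v' * a⁻¹) * g⁻¹ = a * v' * a⁻¹ := by
        conv_rhs => rw [h2]
        group
      exact mul_inv_eq_iff_eq_mul.1 this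
    refine ⟨w * (a * v' * a⁻¹), mul_mem ⟨hwV, hw.2⟩ ⟨hV.conj_mem _ hv'V a, hfixv⟩,
      w⁻¹, inv_mem ⟨hwV, hw.2⟩, ?_⟩
    rw [hv']
    group
  let F : ↥(V ⊓ centralizer (P : Set G)) × ↥(V ⊓ centralizer (P : Set G)) → V := fun z =>
    ⟨a⁻¹ * z.1 * a * z.2, mul_mem (by
      have := hV.conj_mem _ z.1.2.1 a⁻¹; simpa using this) z.2.2.1⟩
  have hF : Function.Surjective F := fun v => by
    obtain ⟨x, hx, y, hy, e⟩ := hsur v v.2
    exact ⟨(⟨x, hx⟩, ⟨y, hy⟩), Subtype.ext e.symm⟩
  have := Nat.card_le_card_of_surjective F hF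
  rwa [Nat.card_prod, ← sq] at this

end Cfsg.Agent.FG3Gen
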