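import Cfsg.Agent.FG3Gen.Faithful

/-!
The fixed points of a coprime operator group of odd prime order on `[H, P]` are generated by its
fixed points on the subgroups `[h, P]`.
-/

set_option autoImplicit false
set_option linter.unusedSectionVars false
set_option linter.style.haveILetI false

namespace Cfsg.Agent.FG3Gen

open Subgroup
open scoped commutatorElement

universe u

theorem core {G : Type u} [Group G] [Finite G] {P H : Subgroup G} (h : Ctx P H) :
    H ⊓ centralizer (P : Set G) ≤ L P H := by
  haveI := h.nrm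
  rcases eq_or_ne H ⊥ with hH | hH
  · exact (hH ▸ inf_le_left : H ⊓ centralizer (P : Set G) ≤ (⊥ : Subgroup G)).trans bot_le
  obtain ⟨V, ⟨hV, hVH, hVne⟩, hVmin⟩ := exists_minimal_of_wellFoundedLT
    (fun V : Subgroup G => V.Normal ∧ V ≤ H ∧ V ≠ ⊥) ⟨H, h.nrm, le_rfl, hH⟩
  haveI := hV
  have hmin : ∀ X : Subgroup G, X.Normal → X ≤ V → X = ⊥ ∨ X = V := fun X hX hXV =>
    or_iff_not_imp_left.2 fun hne => le_antisymm hXV (hVmin ⟨hX, hXV.trans hVH, hne⟩ hXV)
  haveI : Group.IsSolvable V := Coprime.isSolvable_of_le hVH h.sol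
  haveI : Nontrivial V := (nontrivial_iff_ne_bot V).2 hVne
  haveI hab : IsMulCommutative V := by
    have hVV : ⁅V, V⁆ = ⊥ := by
      refine (hmin _ (commutator_normal V V) (commutator_le_self V)).resolve_right fun he => ?_
      have hlt : commutator V < ⊤ := IsSolvable.commutator_lt_top_of_nontrivial V
      refine hlt.ne (map_injective V.subtype_injective ?_)
      rw [map_subtype_commutator, he, ← MonoidHom.range_eq_map, range_subtype]
    exact ⟨⟨fun a b => Subtype.ext (commutatorElement_eq_one_iff_mul_comm.1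
      (mem_bot.1 (hVV ▸ commutator_mem_commutator a.2 b.2)))⟩⟩
  obtain ⟨l, hl, hlV⟩ := Nat.exists_prime_and_dvd (Finite.one_lt_card (α := V)).ne'
  haveI := Fact.mk hl
  have hVl : IsPGroup l V := by
    let S : Sylow l V := default
    haveI : (S : Subgroup V).Normal := ⟨fun a ha y => by
      rwa [IsMulCommutative.is_comm.comm y a, mul_inv_cancel_right]⟩
    haveI := S.characteristic_of_normal inferInstance
    rcases hmin ((S : Subgroup V).map V.subtype) inferInstance (map_subtype_le _) with hb | hb
    · exact absurd ((map_eq_bot_iff_of_injective _ V.subtype_injective).1 hb)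
        (S.ne_bot_of_dvd_card hlV)
    · exact hb ▸ S.isPGroup'.map V.subtype
  by_cases hcen : ⁅V, H⁆ = ⊥
  · refine central_case h hV hVH hVne hVl fun v hv y hy => ?_
    exact (commutatorElement_eq_one_iff_mul_comm.1
      (mem_bot.1 (hcen ▸ commutator_mem_commutator hv hy))).symm
  · exact faithful_case h hV hVH hVl hmin hcen

theorem fixed_points_generated_aux : ∀ (n : ℕ) (G : Type u) [Group G] [Finite G] (P H : Subgroup G),
    Nat.card H ≤ n → (Nat.card P).Prime → 2 < Nat.card P → P ≤ normalizer (H : Set G) →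
      (Nat.card P).Coprime (Nat.card H) → Group.IsSolvable H →
        ⁅H, P⁆ ⊓ centralizer (P : Set G) ≤ L P H := by
  intro n
  induction n using Nat.strong_induction_on with
  | _ n ih =>
  intro G _ _ P H hn hp hodd hPH hcop hsol
  by_cases hfull : ⁅H, P⁆ = H
  swap
  · have hle := Coprime.commutator_le_of_le_normalizer hPH
    have hlt : Nat.card ↥(⁅H, P⁆ : Subgroup G) < n := by
      refine lt_of_lt_of_le (lt_of_le_of_ne (card_le_of_le hle) fun he => hfull ?_) hn
      exact eq_of_le_of_card_ge hle he.ge
    have h1 := ih _ hlt G P ⁅H, P⁆ le_rfl hp hodd (Coprime.le_normalizer_commutator_right H P)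
      (hcop.coprime_dvd_right (card_dvd_of_le hle)) (Coprime.isSolvable_of_le hle hsol)
    rw [Coprime.commutator_commutator_of_solvable hPH hcop (Or.inr hsol)] at h1
    exact h1.trans (L_mono hle)
  -- pass to `H ⊔ P`
  set M := H ⊔ P with hM
  set H' := H.subgroupOf M with hH'
  set P' := P.subgroupOf M with hP'
  have eH : H'.map M.subtype = H := map_subgroupOf_eq_of_le le_sup_left
  have eP : P'.map M.subtype = P := map_subgroupOf_eq_of_le le_sup_right
  have cH : Nat.card H' = Nat.card H := Nat.card_congr (subgroupOfEquivOfLe le_sup_left).toEquiv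
  have cP : Nat.card P' = Nat.card P := Nat.card_congr (subgroupOfEquivOfLe le_sup_right).toEquiv
  haveI hn' : H'.Normal :=
    (normal_subgroupOf_iff_le_normalizer le_sup_left).2 (sup_le le_normalizer hPH)
  haveI : Group.IsSolvable H := hsol
  have hsol' : Group.IsSolvable H' :=
    Group.isSolvable_of_isSolvable_injective
      (f := (subgroupOfEquivOfLe (le_sup_left : H ≤ M)).toMonoidHom)
      (subgroupOfEquivOfLe (le_sup_left : H ≤ M)).injective
  have hfull' : ⁅H', P'⁆ = H' := map_injective M.subtype_injective (by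
    rw [map_commutator, eH, eP, hfull])
  have ctx : Ctx P' H' := by
    refine ⟨cP ▸ hp, cP ▸ hodd, le_normalizer_of_normal, by rw [cP, cH]; exact hcop, hsol', hfull',
      hn', map_injective M.subtype_injective (by
        rw [Subgroup.map_sup, eH, eP, ← MonoidHom.range_eq_map, range_subtype]), ?_, ?_⟩
    · intro K hK hPK hKne
      have hlt : Nat.card K < n := by
        refine lt_of_lt_of_le ?_ hn
        rw [← cH]
        exact lt_of_le_of_ne (card_le_of_le hK) fun he => hKne (eq_of_le_of_card_ge hK he.ge)
      exact (ih _ hlt M P' K le_rfl (cP ▸ hp) (cP ▸ hodd) hPK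
        (by rw [cP]; exact hcop.coprime_dvd_right (cH ▸ card_dvd_of_le hK))
        (Coprime.isSolvable_of_le hK hsol')).trans (L_mono hK)
    · intro N hN hNH hNne c hc
      haveI := hN
      set f := QuotientGroup.mk' N with hf
      have hcop' : (Nat.card P').Coprime (Nat.card H') := by rw [cP, cH]; exact hcop
      have hPN : (Nat.card P').Coprime (Nat.card N) := hcop'.coprime_dvd_right (card_dvd_of_le hNH)
      have hinj : Function.Injective (f.subgroupMap P') := by
        rw [injective_iff_map_eq_one]
        rintro ⟨g, hg⟩ h1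
        have hgN : g ∈ N := (QuotientGroup.eq_one_iff g).1 (congrArg Subtype.val h1)
        have : g ∈ P' ⊓ N := ⟨hg, hgN⟩
        rw [inf_eq_bot_of_coprime hPN, mem_bot] at this
        exact Subtype.ext this
      have cP' : Nat.card (P'.map f) = Nat.card P := by
        rw [← cP]
        exact (Nat.card_congr (Equiv.ofBijective _ ⟨hinj, f.subgroupMap_surjective P'⟩)).symm
      have hlt : Nat.card (H'.map f) < n := by
        refine lt_of_lt_of_le (lt_of_le_of_ne
          (cH ▸ Nat.le_of_dvd Nat.card_pos (card_map_dvd H' f)) fun he => hNne ?_) hn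
        have hb := (f.subgroupMap_surjective H').bijective_of_nat_card_le (by rw [he, cH])
        refine eq_bot_iff.2 fun x hx => ?_
        have : (f.subgroupMap H' ⟨x, hNH hx⟩) = f.subgroupMap H' 1 :=
          Subtype.ext (((QuotientGroup.eq_one_iff x).2 hx).trans (map_one f).symm)
        exact congrArg Subtype.val (hb.1 this)
      have h1 := ih _ hlt (M ⧸ N) (P'.map f) (H'.map f) le_rfl (cP' ▸ hp) (cP' ▸ hodd)
        ((map_mono le_normalizer_of_normal).trans (le_normalizer_map f))
        (by rw [cP']; exact (cH ▸ hcop).coprime_dvd_right (card_map_dvd H' f))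
        (Group.isSolvable_of_surjective (f.subgroupMap_surjective H'))
      rw [← map_commutator, hfull'] at h1
      have hfc : f c ∈ L (P'.map f) (H'.map f) := h1 ⟨⟨c, hc.1, rfl⟩, by
        rintro _ ⟨g, hg, rfl⟩
        rw [← map_mul, ← map_mul, hc.2 g hg]⟩
      have hL : L (P'.map f) (H'.map f) ≤ (L P' H').map f := by
        refine iSup₂_le fun y hy => ?_
        obtain ⟨x, hx, rfl⟩ := hy
        rw [← map_R]
        rintro _ ⟨⟨r, hr, rfl⟩, hrc⟩
        have hfix : ∀ g ∈ P', r⁻¹ * g * r * g⁻¹ ∈ N ⊓ R P' x := by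
          intro g hg
          refine ⟨?_, ?_⟩
          · show r⁻¹ * g * r * g⁻¹ ∈ N
            rw [← QuotientGroup.eq_one_iff]
            show f (r⁻¹ * g * r * g⁻¹) = 1
            simp only [map_mul, map_inv]
            rw [mul_assoc _ (f g), hrc (f g) ⟨g, hg, rfl⟩]
            group
          · show r⁻¹ * g * r * g⁻¹ ∈ R P' x
            rw [mul_assoc, mul_assoc, ← mul_assoc g]
            exact mul_mem (inv_mem hr)
              ((mem_normalizer_iff.1 (le_normalizer_R P' x hg) r).1 hr)
        obtain ⟨d, hd, hdN⟩ := Coprime.exists_fixed_mem_coset (A := P') (K := R P' x)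
          (N := N ⊓ R P' x) ((le_inf le_normalizer_of_normal (le_normalizer_R P' x)).trans
            inf_normalizer_le_normalizer_inf)
          (hPN.coprime_dvd_right (card_dvd_of_le inf_le_left))
          (Or.inr (Coprime.isSolvable_of_le (inf_le_left.trans hNH) hsol')) inf_le_right hr hfix
        exact ⟨d, mem_L hx hd.1 hd.2, ((QuotientGroup.eq).2 hdN.1).symm⟩
      obtain ⟨m, hm, hmc⟩ := hL hfc
      have hn2 : m⁻¹ * c ∈ N ⊓ centralizer (P' : Set M) :=
        ⟨(QuotientGroup.eq).1 hmc, (centralizer (P' : Set M)).mul_mem ((centralizer (P' : Set M)).inv_mem (L_le_centralizer P' H' hm)) hc.2⟩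
      have := mul_mem (mem_sup_left hm : m ∈ L P' H' ⊔ (N ⊓ centralizer (P' : Set M)))
        (mem_sup_right hn2)
      rwa [mul_inv_cancel_left] at this
  intro c hc
  have hcH : c ∈ H := by rw [← hfull]; exact hc.1
  have hcM : c ∈ M := mem_sup_left hcH
  have h2 := core ctx (x := ⟨c, hcM⟩) ⟨hcH, fun g hg => Subtype.ext (hc.2 g hg)⟩
  have h3 := map_L_le M.subtype P' H' ⟨_, h2, rfl⟩
  rwa [eH, eP] at h3

/-- **Flavell.** `C_{[H,P]}(P)` is generated by the subgroups `C_{[h,P]}(P)`. -/
theorem fixed_points_generated {G : Type u} [Group G] [Finite G] (P H : Subgroup G)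
    (hp : (Nat.card P).Prime) (hodd : 2 < Nat.card P) (hPH : P ≤ normalizer (H : Set G))
    (hcop : (Nat.card P).Coprime (Nat.card H)) (hsol : Group.IsSolvable H) :
    ⁅H, P⁆ ⊓ centralizer (P : Set G) ≤ L P H :=
  fixed_points_generated_aux _ G P H le_rfl hp hodd hPH hcop hsol

end Cfsg.Agent.FG3Gen
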